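import Cfsg.Agent.H891.DG.Defs

/-!
# S4180, piece R2: the abelian case (helper529)

`abCase_of : AG → AbCase`: if all the subgroups `⟨g_i m_i⟩` (`g_i` generators of `G` modulo the abelian unique minimal
normal subgroup `M`) are proper then they are complements of `M`; this gives `|M| ^ d` derivations of the
complement `X = ⟨g_i⟩`, against `AG`.
-/

set_option autoImplicit false

namespace Cfsg.Agent.H529.AbC

open Cfsg.Agent.H891.DG Cfsg.Agent.H891.Gen Subgroup

universe u

variable {G : Type u} [Group G]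

/-- conjugation action of a subgroup on an abelian normal subgroup, additively -/
@[reducible]
def conjAct (M : Subgroup G) [M.Normal] (hM : IsMulCommutative ↥M) (X : Subgroup G) :
    letI : CommGroup ↥M := { (inferInstance : Group ↥M) with mul_comm := hM.is_comm.comm }
    DistribMulAction ↥X (Additive ↥M) :=
  letI : CommGroup ↥M := { (inferInstance : Group ↥M) with mul_comm := hM.is_comm.comm }
  { smul := fun x v => Additive.ofMul ⟨(x : G) * (v.toMul : G) * (x : G)⁻¹,
      (inferInstance : M.Normal).conj_mem _ v.toMul.2 _⟩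
    one_smul := fun v => by
      apply Additive.toMul.injective
      apply Subtype.ext
      change ((1 : ↥X) : G) * (v.toMul : G) * ((1 : ↥X) : G)⁻¹ = _
      simp
    mul_smul := fun x y v => by
      apply Additive.toMul.injective
      apply Subtype.ext
      change ((x * y : ↥X) : G) * (v.toMul : G) * ((x * y : ↥X) : G)⁻¹ =
        (x : G) * ((y : G) * (v.toMul : G) * (y : G)⁻¹) * (x : G)⁻¹
      simp [mul_assoc]
    smul_zero := fun x => by
      apply Additive.toMul.injective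
      apply Subtype.ext
      change (x : G) * ((1 : ↥M) : G) * (x : G)⁻¹ = ((1 : ↥M) : G)
      simp
    smul_add := fun x v w => by
      apply Additive.toMul.injective
      apply Subtype.ext
      change (x : G) * ((v.toMul : G) * (w.toMul : G)) * (x : G)⁻¹ =
        ((x : G) * (v.toMul : G) * (x : G)⁻¹) * ((x : G) * (w.toMul : G) * (x : G)⁻¹)
      simp [mul_assoc] }

theorem exists_mul {M : Subgroup G} [M.Normal] {Y : Subgroup G} (hY : Y ⊔ M = ⊤) (g : G) :
    ∃ y ∈ Y, ∃ m ∈ M, y * m = g := by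
  have hg : g ∈ ((Y ⊔ M : Subgroup G) : Set G) := by rw [hY]; exact Set.mem_univ g
  rw [mul_normal] at hg
  obtain ⟨y, hy, m, hm, h⟩ := hg
  exact ⟨y, hy, m, hm, h⟩

theorem exists_mul' {M : Subgroup G} [M.Normal] {Y : Subgroup G} (hY : Y ⊔ M = ⊤) (g : G) :
    ∃ m ∈ M, m * g ∈ Y := by
  obtain ⟨y, hy, m, hm, h⟩ := exists_mul hY g
  refine ⟨y * m⁻¹ * y⁻¹, (inferInstance : M.Normal).conj_mem _ (inv_mem hm) _, ?_⟩
  rw [← h]
  have : y * m⁻¹ * y⁻¹ * (y * m) = y := by group
  rwa [this]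

theorem comm_of {M : Subgroup G} (hM : IsMulCommutative ↥M) {a b : G} (ha : a ∈ M) (hb : b ∈ M) : a * b = b * a :=
  congrArg Subtype.val (hM.is_comm.comm ⟨a, ha⟩ ⟨b, hb⟩)

/-- the intersection of `M` with a supplement is normal -/
theorem inf_normal {M : Subgroup G} [M.Normal] (hM : IsMulCommutative ↥M) {Y : Subgroup G} (hY : Y ⊔ M = ⊤) :
    (Y ⊓ M).Normal := by
  refine ⟨fun n hn g => ?_⟩
  obtain ⟨y, hy, m, hm, rfl⟩ := exists_mul hY g
  have h1 : m * n * m⁻¹ = n := by rw [comm_of hM hm hn.2, mul_inv_cancel_right]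
  have h3 : y * m * n * (y * m)⁻¹ = y * n * y⁻¹ := by
    rw [mul_inv_rev, show y * m * n * (m⁻¹ * y⁻¹) = y * (m * n * m⁻¹) * y⁻¹ by group, h1]
  rw [h3]
  exact Subgroup.mem_inf.2 ⟨mul_mem (mul_mem hy hn.1) (inv_mem hy), (inferInstance : M.Normal).conj_mem _ hn.2 _⟩

/-- all elements of `M` have order dividing a prime `p` -/
theorem exists_prime [Finite G] {M : Subgroup G} [M.Normal] (hM : IsMulCommutative ↥M) (hne : M ≠ ⊥)
    (hu : ∀ N : Subgroup G, N.Normal → N ≠ ⊥ → M ≤ N) : ∃ p : ℕ, p.Prime ∧ ∀ m ∈ M, m ^ p = 1 := by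
  have h1 : Nat.card ↥M ≠ 1 := fun h => hne (by rwa [card_eq_one] at h)
  obtain ⟨p, hp, hpd⟩ := Nat.exists_prime_and_dvd h1
  haveI : Fact p.Prime := ⟨hp⟩
  obtain ⟨x, hx⟩ := exists_prime_orderOf_dvd_card' (G := ↥M) p hpd
  let N : Subgroup G :=
    { carrier := {m | m ∈ M ∧ m ^ p = 1}
      one_mem' := ⟨one_mem M, one_pow p⟩
      mul_mem' := by
        rintro a b ⟨ha, ha'⟩ ⟨hb, hb'⟩
        refine ⟨mul_mem ha hb, ?_⟩
        rw [(show Commute a b from comm_of hM ha hb).mul_pow, ha', hb', one_mul]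
      inv_mem' := by
        rintro a ⟨ha, ha'⟩
        exact ⟨inv_mem ha, by rw [inv_pow, ha', inv_one]⟩ }
  have hN : N.Normal := by
    refine ⟨fun n hn g => ⟨(inferInstance : M.Normal).conj_mem _ hn.1 _, ?_⟩⟩
    rw [conj_pow, hn.2, mul_one, mul_inv_cancel]
  have hN1 : N ≠ ⊥ := by
    intro h
    have h2 : (x : G) ∈ N := ⟨x.2, by
      have := pow_orderOf_eq_one x
      rw [hx] at this
      rw [← coe_pow, this, coe_one]⟩
    rw [h, mem_bot] at h2
    have h3 : x = 1 := Subtype.ext h2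
    rw [h3, orderOf_one] at hx
    exact hp.one_lt.ne hx
  exact ⟨p, hp, fun m hm => (hu N hN hN1 hm).2⟩

/-- **R2** -/
theorem abCase_of (hAG : AG.{u}) : AbCase.{u} := by
  intro G _ _ M hMn hnc hne hu hM d hd hgen
  by_contra hcon
  obtain ⟨f, hf⟩ := hgen
  choose g hg using fun i => QuotientGroup.mk_surjective (f i)
  obtain ⟨p, hp, hpM⟩ := exists_prime hM hne hu
  -- the subgroups `⟨g_i m_i⟩`
  let Y : (Fin d → ↥M) → Subgroup G := fun m => closure (Set.range fun i => g i * (m i : G))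
  have hYM : ∀ m, Y m ⊔ M = ⊤ := by
    intro m
    have h1 : (Y m).map (QuotientGroup.mk' M) = ⊤ := by
      rw [MonoidHom.map_closure, ← hf]
      congr 1
      rw [← Set.range_comp]
      congr 1
      funext i
      change QuotientGroup.mk' M (g i * (m i : G)) = f i
      rw [map_mul, (QuotientGroup.eq_one_iff (m i : G)).2 (m i).2 |> fun h => (show QuotientGroup.mk' M (m i : G) = 1 from h),
        mul_one]
      exact hg i
    have h2 := congrArg (comap (QuotientGroup.mk' M)) h1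
    rw [comap_map_eq, QuotientGroup.ker_mk', comap_top] at h2
    exact h2
  have hYne : ∀ m, Y m ≠ ⊤ := fun m h => hcon ⟨fun i => g i * (m i : G), h⟩
  have hYinf : ∀ m, Y m ⊓ M = ⊥ := by
    intro m
    by_contra hc
    have h1 := hu _ (inf_normal hM (hYM m)) hc
    apply hYne m
    rw [← hYM m]
    exact (sup_eq_left.2 (h1.trans inf_le_left)).symm
  obtain ⟨X, hX⟩ : ∃ X : Subgroup G, X = Y 1 := ⟨_, rfl⟩
  have hXM : X ⊔ M = ⊤ := hX ▸ hYM 1
  have hXi : X ⊓ M = ⊥ := hX ▸ hYinf 1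
  letI : CommGroup ↥M := { (inferInstance : Group ↥M) with mul_comm := hM.is_comm.comm }
  letI act : DistribMulAction ↥X (Additive ↥M) := conjAct M hM X
  have hact : ∀ (x : ↥X) (v : Additive ↥M), ((x • v).toMul : G) = (x : G) * (v.toMul : G) * (x : G)⁻¹ :=
    fun x v => rfl
  -- `X` is faithful on `M`
  have hfaith : ∀ x : ↥X, (∀ v : Additive ↥M, x • v = v) → x = 1 := by
    let K : Subgroup G := X ⊓ centralizer (M : Set G)
    have hK : K.Normal := by
      refine ⟨fun n hn a => ?_⟩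
      obtain ⟨y, hy, m, hm, rfl⟩ := exists_mul hXM a
      have h1 : m * n * m⁻¹ = n := by rw [mem_centralizer_iff.1 hn.2 m hm, mul_inv_cancel_right]
      rw [mul_inv_rev, show y * m * n * (m⁻¹ * y⁻¹) = y * (m * n * m⁻¹) * y⁻¹ by group, h1]
      refine Subgroup.mem_inf.2 ⟨mul_mem (mul_mem hy hn.1) (inv_mem hy), ?_⟩
      rw [mem_centralizer_iff]
      intro b hb
      have h2 : y⁻¹ * b * y ∈ M := by
        have := hMn.conj_mem b hb y⁻¹
        rwa [inv_inv] at this
      have h3 := mem_centralizer_iff.1 hn.2 _ h2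
      calc b * (y * n * y⁻¹) = y * (y⁻¹ * b * y * n) * y⁻¹ := by group
        _ = y * (n * (y⁻¹ * b * y)) * y⁻¹ := by rw [h3]
        _ = y * n * y⁻¹ * b := by group
    have hK1 : K = ⊥ := by
      by_contra hc
      have h1 := hu K hK hc
      have h2 : M ≤ X ⊓ M := le_inf (h1.trans inf_le_left) le_rfl
      rw [hXi] at h2
      exact hne (le_bot_iff.1 h2)
    intro x hx
    have h1 : (x : G) ∈ K := by
      refine ⟨x.2, mem_centralizer_iff.2 fun b hb => ?_⟩
      have h2 := congrArg (fun v : Additive ↥M => ((v.toMul : ↥M) : G)) (hx (Additive.ofMul ⟨b, hb⟩))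
      simp only [hact] at h2
      change (x : G) * b * (x : G)⁻¹ = b at h2
      exact (mul_inv_eq_iff_eq_mul.1 h2).symm
    rw [hK1, mem_bot] at h1
    exact Subtype.ext h1
  have hX1 : ∃ x : ↥X, x ≠ 1 := by
    by_contra hc
    push Not at hc
    have h1 : X = ⊥ := by
      rw [eq_bot_iff]
      intro x hx
      rw [mem_bot]
      exact congrArg Subtype.val (hc ⟨x, hx⟩)
    rw [h1, bot_sup_eq] at hXM
    obtain ⟨m, hm, hm1⟩ := (bot_or_exists_ne_one M).resolve_left hne
    have hN : (zpowers m).Normal := by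
      refine ⟨fun n hn a => ?_⟩
      have h2 : a * n = n * a := comm_of hM (hXM ▸ mem_top a) (hXM ▸ mem_top n)
      rw [h2, mul_inv_cancel_right]
      exact hn
    have h3 := hu _ hN (fun h => hm1 (by rwa [zpowers_eq_bot] at h))
    rw [hXM, top_le_iff] at h3
    refine hnc ⟨m, fun x => ?_⟩
    have h4 : x ∈ zpowers m := h3 ▸ mem_top x
    exact h4
  have htors : ∀ v : Additive ↥M, p • v = 0 := by
    intro v
    apply Additive.toMul.injective
    apply Subtype.ext
    change ((v.toMul : ↥M) : G) ^ p = 1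
    exact hpM _ v.toMul.2
  have hirr : ∀ U : AddSubgroup (Additive ↥M), (∀ (g : ↥X), ∀ u ∈ U, g • u ∈ U) → U = ⊥ ∨ U = ⊤ := by
    intro U hU
    let N : Subgroup G := (AddSubgroup.toSubgroup' U).map M.subtype
    have hmem : ∀ x : G, x ∈ N ↔ ∃ h : x ∈ M, Additive.ofMul (⟨x, h⟩ : ↥M) ∈ U := by
      intro x
      constructor
      · rintro ⟨v, hv, rfl⟩
        exact ⟨v.2, hv⟩
      · rintro ⟨h, h'⟩
        exact ⟨⟨x, h⟩, h', rfl⟩
    have hN : N.Normal := by
      refine ⟨fun n hn a => ?_⟩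
      obtain ⟨hnM, hnU⟩ := (hmem n).1 hn
      obtain ⟨y, hy, m, hm, rfl⟩ := exists_mul hXM a
      have h1 : m * n * m⁻¹ = n := by rw [comm_of hM hm hnM, mul_inv_cancel_right]
      rw [mul_inv_rev, show y * m * n * (m⁻¹ * y⁻¹) = y * (m * n * m⁻¹) * y⁻¹ by group, h1]
      exact (hmem _).2 ⟨hMn.conj_mem _ hnM _, hU ⟨y, hy⟩ _ hnU⟩
    by_cases h : N = ⊥
    · left
      rw [eq_bot_iff]
      intro v hv
      have h1 : ((v.toMul : ↥M) : G) ∈ N := (hmem _).2 ⟨v.toMul.2, hv⟩
      rw [h, mem_bot] at h1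
      rw [AddSubgroup.mem_bot]
      apply Additive.toMul.injective
      exact Subtype.ext h1
    · right
      rw [eq_top_iff]
      intro v _
      exact ((hmem _).1 (hu N hN h v.toMul.2)).2
  have hsmall := hAG p hp ↥X (Additive ↥M) htors hirr hfaith hX1
  -- the derivations
  have hder : ∀ m : Fin d → ↥M, ∃ z : ↥X → Additive ↥M, (∀ a b : ↥X, z (a * b) = z a + a • z b) ∧
      ∀ a : ↥X, ((z a).toMul : G) * (a : G) ∈ Y m := by
    intro m
    have h1 : ∀ a : ↥X, ∃ v : ↥M, (v : G) * (a : G) ∈ Y m := fun a => by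
      obtain ⟨v, hv, h⟩ := exists_mul' (hYM m) (a : G)
      exact ⟨⟨v, hv⟩, h⟩
    choose z hz using h1
    refine ⟨fun a => Additive.ofMul (z a), fun a b => ?_, hz⟩
    apply Additive.toMul.injective
    apply Subtype.ext
    change ((z (a * b) : ↥M) : G) = (z a : G) * ((a : G) * (z b : G) * (a : G)⁻¹)
    have h2 : (z a : G) * ((a : G) * (z b : G) * (a : G)⁻¹) * ((a : G) * (b : G)) ∈ Y m := by
      have := mul_mem (hz a) (hz b)
      have h3 : (z a : G) * (a : G) * ((z b : G) * (b : G)) =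
          (z a : G) * ((a : G) * (z b : G) * (a : G)⁻¹) * ((a : G) * (b : G)) := by group
      rwa [h3] at this
    have h3 : ((z (a * b) : ↥M) : G) * ((z a : G) * ((a : G) * (z b : G) * (a : G)⁻¹))⁻¹ ∈ Y m ⊓ M := by
      refine Subgroup.mem_inf.2 ⟨?_, mul_mem (z (a * b)).2 (inv_mem (mul_mem (z a).2 (hMn.conj_mem _ (z b).2 _)))⟩
      have h4 := mul_mem (hz (a * b)) (inv_mem h2)
      have h5 : ((z (a * b) : ↥M) : G) * ((a * b : ↥X) : G) *
          ((z a : G) * ((a : G) * (z b : G) * (a : G)⁻¹) * ((a : G) * (b : G)))⁻¹ =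
          ((z (a * b) : ↥M) : G) * ((z a : G) * ((a : G) * (z b : G) * (a : G)⁻¹))⁻¹ := by
        rw [coe_mul]
        group
      rwa [h5] at h4
    rw [hYinf, mem_bot, mul_inv_eq_one] at h3
    exact h3
  choose z hz1 hz2 using hder
  let F : (Fin d → ↥M) → {z : ↥X → Additive ↥M // ∀ g h : ↥X, z (g * h) = z g + g • z h} :=
    fun m => ⟨z m, hz1 m⟩
  have hgX : ∀ i, g i ∈ X := fun i => hX ▸ subset_closure ⟨i, by simp⟩
  have hF : Function.Injective F := by
    intro m m' hmm
    have h1 : z m = z m' := congrArg Subtype.val hmm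
    funext i
    have key : ∀ n : Fin d → ↥M, ((z n ⟨g i, hgX i⟩).toMul : G) = g i * (n i : G) * (g i)⁻¹ := by
      intro n
      have h2 := hz2 n ⟨g i, hgX i⟩
      have h3 : g i * (n i : G) ∈ Y n := subset_closure ⟨i, rfl⟩
      have h4 : ((z n ⟨g i, hgX i⟩).toMul : G) * (g i * (n i : G) * (g i)⁻¹)⁻¹ ∈ Y n ⊓ M := by
        refine Subgroup.mem_inf.2 ⟨?_, mul_mem (z n ⟨g i, hgX i⟩).toMul.2 (inv_mem (hMn.conj_mem _ (n i).2 _))⟩
        have h5 := mul_mem h2 (inv_mem h3)
        have h6 : ((z n ⟨g i, hgX i⟩).toMul : G) * ((⟨g i, hgX i⟩ : ↥X) : G) * (g i * (n i : G))⁻¹ =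
            ((z n ⟨g i, hgX i⟩).toMul : G) * (g i * (n i : G) * (g i)⁻¹)⁻¹ := by
          change _ * g i * (g i * (n i : G))⁻¹ = _
          group
        rwa [h6] at h5
      rw [hYinf, mem_bot, mul_inv_eq_one] at h4
      exact h4
    have h2 := key m
    rw [h1, key m'] at h2
    apply Subtype.ext
    have h3 := mul_right_cancel h2
    exact (mul_left_cancel h3).symm
  have hcard := Nat.card_le_card_of_injective F hF
  rw [Nat.card_fun, Nat.card_eq_fintype_card (α := Fin d), Fintype.card_fin] at hcard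
  have h1 : Nat.card ↥M ^ 2 ≤ Nat.card ↥M ^ d := Nat.pow_le_pow_right Nat.card_pos hd
  have h2 : Nat.card (Additive ↥M) = Nat.card ↥M := rfl
  unfold Cfsg.Agent.H891.Gen.Small at hsmall
  rw [h2] at hsmall
  omega

end Cfsg.Agent.H529.AbC
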