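import Cfsg.Agent.H696.PSq.Defs
import Cfsg.Agent.H680.Red5009

/-!
# S4844, piece PS-10: the almost simple case (helper529)
-/

set_option autoImplicit false

namespace Cfsg.Agent.H529.PSq

open Cfsg Subgroup Cfsg.Agent.H33 Cfsg.Agent.H696.PSq Cfsg.Agent.Lib.Cores

universe u v

/-- Itô--Michler for groups with trivial `p`-core -/
theorem im_of_core {p : ℕ} [hp : Fact p.Prime] (hIM : FactIM.{u} p) {X : Type u} [Group X] [Finite X]
    (h1 : pCore p X = ⊥) (hd : p ∣ Nat.card X) : IM p X := by
  by_contra h
  obtain ⟨P⟩ : Nonempty (Sylow p X) := inferInstance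
  have h2 := (hIM X h P).1
  have h3 : (P : Subgroup X) ≤ pCore p X := le_pCore h2 P.2
  rw [h1, le_bot_iff] at h3
  exact P.ne_bot_of_dvd_card hd h3

/-- A group without nontrivial normal `p`- and `p'`-subgroups and without a degree divisible by `p ^ 2` is almost
simple. -/
theorem exists_simple {p : ℕ} [hp : Fact p.Prime] (hIM : FactIM.{u} p) (n : ℕ) : ∀ (G : Type u) [Group G] [Finite G],
    Nat.card G ≤ n → Nontrivial G → Hyp p G → pCore p G = ⊥ → pPrimeCore p G = ⊥ →
    ∃ S : Subgroup G, S.Normal ∧ IsSimpleGroup ↥S ∧ ¬ IsMulCommutative ↥S ∧ centralizer (S : Set G) = ⊥ ∧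
      p ∣ Nat.card S := by
  induction n with
  | zero =>
    intro G _ _ hn
    exact absurd hn (by have := Nat.card_pos (α := G); omega)
  | succ n ih =>
    intro G _ _ hn hnt hyp hc1 hc2
    have hd : ∀ N : Subgroup G, N.Normal → N ≠ ⊥ → p ∣ Nat.card N := by
      intro N hN hne
      by_contra hcon
      apply hne
      rw [eq_bot_iff, ← hc2]
      exact le_pPrimeCore hN (((Nat.Prime.coprime_iff_not_dvd hp.out).2 hcon).symm)
    have hp1 : ∀ N : Subgroup G, N.Normal → IsPGroup p N → N = ⊥ := by
      intro N hN h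
      rw [eq_bot_iff, ← hc1]
      exact le_pCore hN h
    by_cases hs : IsSimpleGroup G
    · have hdG : p ∣ Nat.card G := by
        have := hd ⊤ inferInstance top_ne_bot
        rwa [card_top] at this
      have hna : ¬ IsMulCommutative G := by
        intro hc
        obtain ⟨P⟩ : Nonempty (Sylow p G) := inferInstance
        have hPn : (P : Subgroup G).Normal :=
          ⟨fun a ha g => by rwa [hc.is_comm.comm g a, mul_inv_cancel_right]⟩
        exact P.ne_bot_of_dvd_card hdG (hp1 _ hPn P.2)
      have e : (⊤ : Subgroup G) ≃* G := topEquiv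
      refine ⟨⊤, inferInstance, (MulEquiv.isSimpleGroup_congr e).2 hs, ?_, ?_, ?_⟩
      · intro h
        exact hna ⟨⟨fun a b => congrArg Subtype.val (h.is_comm.comm (⟨a, mem_top a⟩ : (⊤ : Subgroup G)) ⟨b, mem_top b⟩)⟩⟩
      · have h1 : centralizer ((⊤ : Subgroup G) : Set G) = center G := by
          ext x
          simp [mem_centralizer_iff, mem_center_iff]
        rw [h1]
        rcases hs.eq_bot_or_eq_top_of_normal (center G) inferInstance with h | h
        · exact h
        · exfalso
          exact hna ⟨⟨fun a b => ((mem_center_iff.1 (h ▸ mem_top b : b ∈ center G)) a)⟩⟩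
      · rwa [card_top]
    obtain ⟨M, hM, hMb, hMt⟩ : ∃ N : Subgroup G, N.Normal ∧ N ≠ ⊥ ∧ N ≠ ⊤ := by
      by_contra hcon
      push Not at hcon
      exact hs ⟨fun N hN => by
        by_cases h : N = ⊥
        · exact Or.inl h
        · exact Or.inr (hcon N hN h)⟩
    have h1 : Nat.card M < Nat.card G := by
      refine lt_of_le_of_ne (Subgroup.card_le_card_group M) fun h => hMt ?_
      exact Subgroup.eq_top_of_card_eq M h
    have hMnt : Nontrivial M := (nontrivial_iff_ne_bot M).2 hMb
    have core1 : ∀ N : Subgroup G, N.Normal → pCore p N = ⊥ := by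
      intro N hN
      have h3 : ((pCore p N).map N.subtype) = ⊥ := by
        haveI := pCore_characteristic (G := N) p
        exact hp1 _ ConjAct.normal_of_characteristic_of_normal ((pCore_isPGroup p).map _)
      rwa [map_eq_bot_iff_of_injective _ N.subtype_injective] at h3
    have core2 : pPrimeCore p M = ⊥ := by
      have h3 : ((pPrimeCore p M).map M.subtype) ≤ pPrimeCore p G := by
        haveI := pPrimeCore_characteristic (G := M) p
        refine le_pPrimeCore ConjAct.normal_of_characteristic_of_normal ?_
        rw [card_map_of_injective M.subtype_injective]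
        exact pPrimeCore_coprime p
      rwa [hc2, le_bot_iff, map_eq_bot_iff_of_injective _ M.subtype_injective] at h3
    obtain ⟨S, hS, hSs, hSna, hSc, hSd⟩ := ih M (by omega) hMnt (fun h => hyp (h.of_normal M)) (core1 M hM) core2
    -- `S` is characteristic in `M`
    have hSle : ∀ N : Subgroup M, N.Normal → N ≠ ⊥ → S ≤ N := by
      intro N hN hne
      have h2 : (N.subgroupOf S).Normal := hN.subgroupOf S
      rcases hSs.eq_bot_or_eq_top_of_normal _ h2 with h | h
      · exfalso
        apply hne
        rw [eq_bot_iff, ← hSc]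
        rw [subgroupOf_eq_bot, disjoint_iff] at h
        have h3 : ⁅N, S⁆ ≤ N ⊓ S := commutator_le_inf N S
        rw [h, le_bot_iff, commutator_eq_bot_iff_le_centralizer] at h3
        exact h3
      · rwa [subgroupOf_eq_top] at h
    have hSchar : S.Characteristic := by
      rw [characteristic_iff_le_map]
      intro φ
      refine hSle _ (hS.map _ φ.surjective) ?_
      rw [Ne, map_eq_bot_iff_of_injective _ φ.injective]
      rintro rfl
      exact (not_nontrivial_iff_subsingleton.2 inferInstance) hSs.toNontrivial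
    let T : Subgroup G := S.map M.subtype
    have hT : T.Normal := ConjAct.normal_of_characteristic_of_normal
    have eT : S ≃* T := S.equivMapOfInjective _ M.subtype_injective
    have hTs : IsSimpleGroup T := (MulEquiv.isSimpleGroup_congr eT).1 hSs
    have hTna : ¬ IsMulCommutative T := by
      intro h
      exact hSna ⟨⟨fun a b => eT.injective (by rw [map_mul, map_mul]; exact h.is_comm.comm _ _)⟩⟩
    have hTd : p ∣ Nat.card T := by rwa [← Nat.card_congr eT.toEquiv]
    refine ⟨T, hT, hTs, hTna, ?_, hTd⟩
    by_contra hne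
    have hCn : (centralizer (T : Set G)).Normal := inferInstance
    have hCT : centralizer (T : Set G) ⊓ T = ⊥ := by
      have h2 : ((centralizer (T : Set G)).subgroupOf T).Normal := hCn.subgroupOf T
      rcases hTs.eq_bot_or_eq_top_of_normal _ h2 with h | h
      · rwa [subgroupOf_eq_bot, disjoint_iff] at h
      · exfalso
        rw [subgroupOf_eq_top] at h
        exact hTna ⟨⟨fun a b => Subtype.ext (mem_centralizer_iff.1 (h b.2) a a.2)⟩⟩
    apply hyp
    have h5 := H680.Red5009.im_of_two (centralizer (T : Set G)) T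
      (fun a ha b hb => (mem_centralizer_iff.1 ha b hb).symm) hCT
      (im_of_core hIM (core1 _ hCn) (hd _ hCn hne)) (im_of_core hIM (core1 _ hT) hTd)
    rwa [← pow_two] at h5

/-- **PS-10** -/
theorem almost_simple {p : ℕ} [hp : Fact p.Prime] (hIM : FactIM.{u} p) (hSq : FactSq.{u} p) (hOut : FactOut.{u} p)
    {G : Type u} [Group G] [Finite G] (hyp : Hyp p G) (hcore : pCore p G = ⊥)
    (hV : ∀ V : Subgroup G, V.Normal → ¬ p ∣ Nat.card V → V = ⊥) :
    (Nat.card G).factorization p ≤ 2 ∨ (p = 2 ∧ Nonempty (G ≃* alternatingGroup (Fin 7))) := by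
  rcases subsingleton_or_nontrivial G with hsub | hnt
  · left
    rw [Nat.card_of_subsingleton (1 : G), Nat.factorization_one]
    simp
  have hc2 : pPrimeCore p G = ⊥ := by
    refine hV _ (pPrimeCore_normal p G) ?_
    exact (Nat.Prime.coprime_iff_not_dvd hp.out).1 (pPrimeCore_coprime p).symm
  obtain ⟨S, hS, hSs, hSna, hSc, hSd⟩ := exists_simple hIM _ G le_rfl hnt hyp hcore hc2
  have hdiv : ∀ (T : Type u) [Group T] (e : S ≃* T), ∃ K : Subgroup (MulAut T),
      (MulAut.conj : T →* MulAut T).range ≤ K ∧ Nonempty (G ≃* K) := fun T _ e => H216.Dih.exists_range S hSc e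
  by_cases h2 : p ^ 2 ∣ Nat.card S
  · rcases hSq S hSna h2 with h | ⟨hp3, ⟨e⟩⟩
    · exact absurd (h.of_normal S) hyp
    obtain ⟨K, hK, ⟨e'⟩⟩ := H216.Dih.exists_range S hSc e
    have hb := Cfsg.Agent.S2119.result 7 (by norm_num) (by norm_num)
    let c : Equiv.Perm (Fin 7) ≃* MulAut ↥(alternatingGroup (Fin 7)) := MulEquiv.ofBijective _ hb
    have hcK : Nat.card K = Nat.card G := (Nat.card_congr e'.toEquiv).symm
    have hcM : Nat.card S = 2520 := by rw [Nat.card_congr e.toEquiv, H680.Red5009.card_A7]
    have hcA : Nat.card (MulAut ↥(alternatingGroup (Fin 7))) = 5040 := by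
      rw [← Nat.card_congr c.toEquiv, Nat.card_perm, Nat.card_eq_fintype_card, Fintype.card_fin]
      decide
    have hd1 : Nat.card G ∣ 5040 := by rw [← hcK, ← hcA]; exact card_subgroup_dvd_card K
    have hd2 : 2520 ∣ Nat.card G := by rw [← hcM]; exact card_subgroup_dvd_card S
    have hp23 : p = 2 ∨ p = 3 := by
      have := hp.out.two_le
      omega
    rcases hp23 with rfl | rfl
    · right
      refine ⟨rfl, ?_⟩
      obtain ⟨k, hk⟩ := hd2
      have hk2 := hd1
      rw [hk] at hk2
      have h6 : k ∣ 2 := by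
        have : 2520 * k ∣ 2520 * 2 := hk2
        exact Nat.dvd_of_mul_dvd_mul_left (by norm_num) this
      rcases (Nat.dvd_prime Nat.prime_two).1 h6 with rfl | rfl
      · have hSt : S = ⊤ := eq_top_of_card_eq S (by rw [hk, hcM])
        exact ⟨(topEquiv.symm.trans (MulEquiv.subgroupCongr hSt).symm).trans e⟩
      · exfalso
        have hKt : K = ⊤ := eq_top_of_card_eq K (by rw [hcK, hk, hcA])
        have e1 : G ≃* Equiv.Perm (Fin 7) :=
          (e'.trans ((MulEquiv.subgroupCongr hKt).trans topEquiv)).trans c.symm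
        exact hyp (H680.Red5009.im_perm_seven.of_equiv e1)
    · left
      have h3 := (Nat.factorization_le_iff_dvd Nat.card_pos.ne' (by norm_num)).2 hd1 3
      have h4 : Nat.factorization 5040 3 = 2 := by
        rw [show (5040 : ℕ) = 3 ^ 2 * 560 by norm_num, Nat.factorization_mul (by norm_num) (by norm_num),
          Nat.factorization_pow]
        simp only [Finsupp.coe_add, Pi.add_apply, Finsupp.coe_smul, Pi.smul_apply, Nat.prime_three.factorization_self]
        rw [Nat.factorization_eq_zero_of_not_dvd (by norm_num)]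
        norm_num
      omega
  · left
    have ho := hOut S hSna hSd h2
    obtain ⟨K, hK, ⟨e'⟩⟩ := hdiv S (MulEquiv.refl _)
    have hcK : Nat.card K = Nat.card G := (Nat.card_congr e'.toEquiv).symm
    have h3 : Nat.card (MulAut S) = Nat.card (Cfsg.Out S) * Nat.card (MulAut.conj : S →* MulAut S).range :=
      card_eq_card_quotient_mul_card_subgroup _
    have h4 : Nat.card (MulAut.conj : S →* MulAut S).range ∣ Nat.card S :=
      card_range_dvd _
    have h5 : Nat.card G ∣ Nat.card (Cfsg.Out S) * Nat.card S := by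
      rw [← hcK]
      refine (card_subgroup_dvd_card K).trans ?_
      rw [h3]
      exact Nat.mul_dvd_mul_left _ h4
    have h6 := (Nat.factorization_le_iff_dvd Nat.card_pos.ne' (mul_ne_zero Nat.card_pos.ne' Nat.card_pos.ne')).2 h5 p
    rw [Nat.factorization_mul Nat.card_pos.ne' Nat.card_pos.ne', Finsupp.coe_add, Pi.add_apply,
      Nat.factorization_eq_zero_of_not_dvd ho] at h6
    have h7 : (Nat.card S).factorization p < 2 := by
      by_contra hcon
      push Not at hcon
      exact h2 ((hp.out.pow_dvd_iff_le_factorization Nat.card_pos.ne').2 hcon)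
    omega

end Cfsg.Agent.H529.PSq
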