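import Cfsg.Agent.H529.PsqAlm
import Cfsg.Agent.H696.PSq.DefsE

/-!
# S4844, piece PS-10 with the fact `FactSqE` (helper529)
-/

set_option autoImplicit false

namespace Cfsg.Agent.H529.PSq

open Cfsg Subgroup Cfsg.Agent.H33 Cfsg.Agent.H696.PSq Cfsg.Agent.Lib.Cores

universe u v

/-- **PS-10**, with the weaker fact `FactSqE` -/
theorem almost_simpleE {p : ℕ} [hp : Fact p.Prime] (hIM : FactIM.{u} p) (hSq : FactSqE.{u} p) (hOut : FactOut.{u} p)
    {G : Type u} [Group G] [Finite G] (hyp : Hyp p G) (hcore : pCore p G = ⊥)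
    (hV : ∀ V : Subgroup G, V.Normal → ¬ p ∣ Nat.card V → V = ⊥) :
    (Nat.card G).factorization p ≤ 2 ∨ (p = 2 ∧ Nonempty (G ≃* alternatingGroup (Fin 7))) := by
  rcases subsingleton_or_nontrivial G with hsub | hnt
  · left
    rw [Nat.card_of_subsingleton (1 : G), Nat.factorization_one]
    simp
  have hc2 : pPrimeCore p G = ⊥ := by
    refine hV _ (pPrimeCore_normal p G) ?_
    exact (Nat.Prime.coprime_iff_not_dvd hp.out).1 (pPrimeCore_coprime p).symm
  obtain ⟨S, hS, hSs, hSna, hSc, hSd⟩ := exists_simple hIM _ G le_rfl hnt hyp hcore hc2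
  have hdiv : ∀ (T : Type u) [Group T] (e : S ≃* T), ∃ K : Subgroup (MulAut T),
      (MulAut.conj : T →* MulAut T).range ≤ K ∧ Nonempty (G ≃* K) := fun T _ e => H216.Dih.exists_range S hSc e
  by_cases h2 : p ^ 2 ∣ Nat.card S
  · rcases hSq S hSna h2 with h | ⟨hp3, ⟨e⟩⟩ | hE
    · exact absurd (h.of_normal S) hyp
    · obtain ⟨K, hK, ⟨e'⟩⟩ := H216.Dih.exists_range S hSc e
      have hb := Cfsg.Agent.S2119.result 7 (by norm_num) (by norm_num)
      let c : Equiv.Perm (Fin 7) ≃* MulAut ↥(alternatingGroup (Fin 7)) := MulEquiv.ofBijective _ hb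
      have hcK : Nat.card K = Nat.card G := (Nat.card_congr e'.toEquiv).symm
      have hcM : Nat.card S = 2520 := by rw [Nat.card_congr e.toEquiv, H680.Red5009.card_A7]
      have hcA : Nat.card (MulAut ↥(alternatingGroup (Fin 7))) = 5040 := by
        rw [← Nat.card_congr c.toEquiv, Nat.card_perm, Nat.card_eq_fintype_card, Fintype.card_fin]
        decide
      have hd1 : Nat.card G ∣ 5040 := by rw [← hcK, ← hcA]; exact card_subgroup_dvd_card K
      have hd2 : 2520 ∣ Nat.card G := by rw [← hcM]; exact card_subgroup_dvd_card S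
      have hp23 : p = 2 ∨ p = 3 := by
        have := hp.out.two_le
        omega
      rcases hp23 with rfl | rfl
      · right
        refine ⟨rfl, ?_⟩
        obtain ⟨k, hk⟩ := hd2
        have hk2 := hd1
        rw [hk] at hk2
        have h6 : k ∣ 2 := by
          have : 2520 * k ∣ 2520 * 2 := hk2
          exact Nat.dvd_of_mul_dvd_mul_left (by norm_num) this
        rcases (Nat.dvd_prime Nat.prime_two).1 h6 with rfl | rfl
        · have hSt : S = ⊤ := eq_top_of_card_eq S (by rw [hk, hcM])
          exact ⟨(topEquiv.symm.trans (MulEquiv.subgroupCongr hSt).symm).trans e⟩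
        · exfalso
          have hKt : K = ⊤ := eq_top_of_card_eq K (by rw [hcK, hk, hcA])
          have e1 : G ≃* Equiv.Perm (Fin 7) :=
            (e'.trans ((MulEquiv.subgroupCongr hKt).trans topEquiv)).trans c.symm
          exact hyp (H680.Red5009.im_perm_seven.of_equiv e1)
      · left
        have h3 := (Nat.factorization_le_iff_dvd Nat.card_pos.ne' (by norm_num)).2 hd1 3
        have h4 : Nat.factorization 5040 3 = 2 := by
          rw [show (5040 : ℕ) = 3 ^ 2 * 560 by norm_num, Nat.factorization_mul (by norm_num) (by norm_num),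
            Nat.factorization_pow]
          simp only [Finsupp.coe_add, Pi.add_apply, Finsupp.coe_smul, Pi.smul_apply, Nat.prime_three.factorization_self]
          rw [Nat.factorization_eq_zero_of_not_dvd (by norm_num)]
          norm_num
        omega
    · left
      obtain ⟨K, hK, ⟨e'⟩⟩ := hdiv S (MulEquiv.refl _)
      have hcK : Nat.card K = Nat.card G := (Nat.card_congr e'.toEquiv).symm
      have h3 : Nat.card (MulAut S) = Nat.card (Cfsg.Out S) * Nat.card (MulAut.conj : S →* MulAut S).range :=
        card_eq_card_quotient_mul_card_subgroup _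
      have h4 : Nat.card (MulAut.conj : S →* MulAut S).range ∣ Nat.card S :=
        card_range_dvd _
      have h5 : Nat.card G ∣ Nat.card (Cfsg.Out S) * Nat.card S := by
        rw [← hcK]
        refine (card_subgroup_dvd_card K).trans ?_
        rw [h3]
        exact Nat.mul_dvd_mul_left _ h4
      have h6 := (Nat.factorization_le_iff_dvd Nat.card_pos.ne' (mul_ne_zero Nat.card_pos.ne' Nat.card_pos.ne')).2 h5 p
      rw [Nat.factorization_mul Nat.card_pos.ne' Nat.card_pos.ne', Finsupp.coe_add, Pi.add_apply,
        Nat.factorization_eq_zero_of_not_dvd hE.out] at h6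
      have h7 : (Nat.card S).factorization p < 3 := by
        by_contra hcon
        push Not at hcon
        exact hE.cube ((hp.out.pow_dvd_iff_le_factorization Nat.card_pos.ne').2 hcon)
      omega
  · left
    have ho := hOut S hSna hSd h2
    obtain ⟨K, hK, ⟨e'⟩⟩ := hdiv S (MulEquiv.refl _)
    have hcK : Nat.card K = Nat.card G := (Nat.card_congr e'.toEquiv).symm
    have h3 : Nat.card (MulAut S) = Nat.card (Cfsg.Out S) * Nat.card (MulAut.conj : S →* MulAut S).range :=
      card_eq_card_quotient_mul_card_subgroup _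
    have h4 : Nat.card (MulAut.conj : S →* MulAut S).range ∣ Nat.card S :=
      card_range_dvd _
    have h5 : Nat.card G ∣ Nat.card (Cfsg.Out S) * Nat.card S := by
      rw [← hcK]
      refine (card_subgroup_dvd_card K).trans ?_
      rw [h3]
      exact Nat.mul_dvd_mul_left _ h4
    have h6 := (Nat.factorization_le_iff_dvd Nat.card_pos.ne' (mul_ne_zero Nat.card_pos.ne' Nat.card_pos.ne')).2 h5 p
    rw [Nat.factorization_mul Nat.card_pos.ne' Nat.card_pos.ne', Finsupp.coe_add, Pi.add_apply,
      Nat.factorization_eq_zero_of_not_dvd ho] at h6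
    have h7 : (Nat.card S).factorization p < 2 := by
      by_contra hcon
      push Not at hcon
      exact h2 ((hp.out.pow_dvd_iff_le_factorization Nat.card_pos.ne').2 hcon)
    omega

end Cfsg.Agent.H529.PSq
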