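import Cfsg.Agent.H412.Tc.Defs

/-!
# Semilinear groups whose linear part is scalar (for S3621, helper412)

`main` : `A` an irreducible group of semilinear automorphisms of `V` over the finite field `K` containing the scalars,
whose linear elements are scalars. Then `V` has dimension one (Hilbert's theorem 90, norms of finite fields).
-/

set_option autoImplicit false

namespace Cfsg.Agent.H529.TcHilbertN

open Cfsg.Agent.H412.Tc

instance finite_aut {K : Type*} [Field K] [Finite K] : Finite (K ≃+* K) :=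
  Finite.of_injective (fun f : K ≃+* K => (f : K → K)) DFunLike.coe_injective

theorem isCyclic_sub {K : Type*} [Field K] [Finite K] (Γ : Subgroup (K ≃+* K)) : IsCyclic Γ := by
  let e := FixedPoints.toAlgAutMulEquiv Γ K
  exact isCyclic_of_surjective e.symm.toMonoidHom e.symm.surjective

/-- every element fixed by `γ` is a norm for the group `Γ` generated by `γ` -/
theorem exists_norm {K : Type*} [Field K] [Finite K] (Γ : Subgroup (K ≃+* K)) (γ : Γ)
    (hγ : ∀ x : Γ, x ∈ Subgroup.zpowers γ) {c : K} (hc0 : c ≠ 0) (hc : (γ : K ≃+* K) c = c) :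
    ∃ t : K, t ≠ 0 ∧ ∏ i ∈ Finset.range (orderOf γ), ((γ : K ≃+* K) ^ i) t = c := by
  classical
  let K0 := FixedPoints.subfield Γ K
  have hcK : c ∈ K0 := by
    intro x
    obtain ⟨k, hk⟩ := Subgroup.mem_zpowers_iff.1 (hγ x)
    have h1 : γ ∈ MulAction.stabilizer Γ c := hc
    have h2 := (MulAction.stabilizer Γ c).zpow_mem h1 k
    rw [hk] at h2
    exact h2
  obtain ⟨t, ht⟩ := FiniteField.norm_surjective K0 K ⟨c, hcK⟩
  let _ : Fintype Γ := Fintype.ofFinite Γ
  have h1 := Algebra.norm_eq_prod_automorphisms K0 t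
  rw [ht] at h1
  have h2 : ∏ σ : (K ≃ₐ[K0] K), σ t = ∏ x : Γ, (x : K ≃+* K) t :=
    (Fintype.prod_equiv (FixedPoints.toAlgAutMulEquiv Γ K).toEquiv _ _ (fun x => rfl)).symm
  have h3 : ∏ x : Γ, (x : K ≃+* K) t = ∏ i ∈ Finset.range (orderOf γ), ((γ : K ≃+* K) ^ i) t := by
    rw [← IsCyclic.image_range_orderOf hγ, Finset.prod_image]
    · refine Finset.prod_congr rfl fun i _ => ?_
      rw [Subgroup.coe_pow]
    · intro i hi j hj hij
      exact pow_injOn_Iio_orderOf (Finset.mem_range.1 hi) (Finset.mem_range.1 hj) hij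
  refine ⟨t, ?_, ?_⟩
  · rintro rfl
    rw [Algebra.norm_zero] at ht
    exact hc0 (congrArg Subtype.val ht).symm
  · rw [← h3, ← h2, ← h1]
    rfl

theorem main {K V : Type*} [Field K] [Finite K] [AddCommGroup V] [Module K V] [Finite V]
    [Nontrivial V] (A : Subgroup (GV V)) (hsemi : ∀ g ∈ A, Semi K g)
    (hscal : ∀ c : Kˣ, scal K V c ∈ A)
    (hcent : ∀ g ∈ A, (∀ (c : K) (v : V), g • c • v = c • g • v) → ∃ c : Kˣ, g = scal K V c)
    (hirr : Irr A) : ∃ v : V, ∀ w, ∃ c : K, w = c • v := by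
  classical
  obtain ⟨u, hu⟩ := exists_ne (0 : V)
  have hne : ∀ g : GV V, g • u ≠ 0 := by
    intro g h
    apply hu
    have h1 : g⁻¹ • g • u = u := inv_smul_smul g u
    rw [h, smul_zero] at h1
    exact h1.symm
  -- uniqueness of the field automorphism
  have huniq : ∀ (g : GV V) (σ τ : K ≃+* K), (∀ (c : K) (v : V), g • c • v = σ c • g • v) →
      (∀ (c : K) (v : V), g • c • v = τ c • g • v) → σ = τ := by
    intro g σ τ h1 h2
    ext c
    have h3 : (σ c - τ c) • (g • u) = 0 := by rw [sub_smul, ← h1, ← h2, sub_self]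
    exact sub_eq_zero.1 ((smul_eq_zero.1 h3).resolve_right (hne g))
  choose σ hσ using fun g : A => hsemi g g.2
  let φ : A →* (K ≃+* K) :=
    { toFun := σ
      map_one' := huniq (1 : A) _ _ (hσ 1) (by
        intro c v
        rw [OneMemClass.coe_one, one_smul, one_smul]
        rfl)
      map_mul' := fun g h => huniq (g * h : A) _ _ (hσ (g * h)) (by
        intro c v
        show ((g : GV V) * (h : GV V)) • c • v = σ g (σ h c) • ((g : GV V) * (h : GV V)) • v
        rw [mul_smul, mul_smul, hσ h, hσ g]) }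
  have hφ : ∀ (g : A) (c : K) (v : V), (g : GV V) • c • v = φ g c • (g : GV V) • v := hσ
  have hφ1 : ∀ g : A, φ g = 1 → ∃ c : Kˣ, (g : GV V) = scal K V c := by
    intro g hg
    refine hcent g g.2 fun c v => ?_
    rw [hφ, hg]
    rfl
  have hφs : ∀ c : Kˣ, φ ⟨scal K V c, hscal c⟩ = 1 := by
    intro c
    refine huniq (scal K V c) _ _ (hφ ⟨scal K V c, hscal c⟩) ?_
    intro d v
    show scal K V c • d • v = d • scal K V c • v
    rw [scal_smul, scal_smul, smul_smul, smul_smul, mul_comm]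
  -- a generator
  have hcyc : IsCyclic φ.range := isCyclic_sub φ.range
  obtain ⟨⟨_, g, rfl⟩, hγ⟩ := IsCyclic.exists_generator (α := φ.range)
  set τ : K ≃+* K := φ g with hτ
  set s := orderOf τ with hs
  have hs0 : 0 < s := orderOf_pos τ
  obtain ⟨c0, hc0⟩ := hφ1 (g ^ s) (by rw [map_pow, ← hτ, hs, pow_orderOf_eq_one])
  have hgs : ∀ v : V, ((g : GV V) ^ s) • v = (c0 : K) • v := by
    intro v
    rw [← Subgroup.coe_pow, hc0, scal_smul]
  have hτc : τ (c0 : K) = c0 := by
    have h1 : (g : GV V) • (c0 : K) • u = (c0 : K) • (g : GV V) • u := by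
      rw [← hgs, ← hgs, smul_smul, smul_smul, pow_mul_comm']
    rw [hφ] at h1
    have h3 : (τ (c0 : K) - c0) • ((g : GV V) • u) = 0 := by rw [sub_smul, h1, sub_self]
    exact sub_eq_zero.1 ((smul_eq_zero.1 h3).resolve_right (hne _))
  obtain ⟨t, ht0, ht⟩ := exists_norm φ.range ⟨τ, g, rfl⟩ hγ (c := ((c0 : K))⁻¹) (inv_ne_zero c0.ne_zero)
    (by
      show τ ((c0 : K))⁻¹ = _
      rw [map_inv₀, hτc])
  have ho : orderOf (⟨τ, g, rfl⟩ : φ.range) = s := Subgroup.orderOf_mk _ _
  rw [ho] at ht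
  -- the corrected element
  let g' : A := ⟨scal K V (Units.mk0 t ht0), hscal _⟩ * g
  have hg' : ∀ v : V, (g' : GV V) • v = t • (g : GV V) • v := by
    intro v
    show (scal K V (Units.mk0 t ht0) * (g : GV V)) • v = _
    rw [mul_smul, scal_smul]
    rfl
  have hφg' : φ g' = τ := by
    show φ (⟨scal K V (Units.mk0 t ht0), hscal _⟩ * g) = τ
    rw [map_mul, hφs, one_mul]
  have hpow : ∀ (i : ℕ) (v : V), ((g' : GV V) ^ i) • v = (∏ j ∈ Finset.range i, (τ ^ j) t) • ((g : GV V) ^ i) • v := by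
    intro i
    induction i with
    | zero => intro v; rw [pow_zero, pow_zero, Finset.range_zero, Finset.prod_empty, one_smul, one_smul]
    | succ i ih =>
      intro v
      have e : (∏ j ∈ Finset.range (i + 1), (τ ^ j) t) = t * τ (∏ j ∈ Finset.range i, (τ ^ j) t) := by
        rw [Finset.prod_range_succ', map_prod, mul_comm]
        congr 1
        refine Finset.prod_congr rfl fun j _ => ?_
        rw [pow_succ']
        rfl
      rw [e, pow_succ' (g' : GV V), mul_smul, ih, hg', hφ, ← hτ, pow_succ' (g : GV V), mul_smul (g : GV V), smul_smul]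
  have hone : ∀ v : V, ((g' : GV V) ^ s) • v = v := by
    intro v
    rw [hpow, ht, hgs, smul_smul, inv_mul_cancel₀ c0.ne_zero, one_smul]
  have hsl : ∀ (i : ℕ) (c : K) (v : V), ((g' : GV V) ^ i) • c • v = (τ ^ i) c • ((g' : GV V) ^ i) • v := by
    intro i c v
    have h1 := hφ (g' ^ i) c v
    rw [map_pow, hφg', Subgroup.coe_pow] at h1
    exact h1
  -- a fixed vector
  have hex : ∃ l : K, ∑ i ∈ Finset.range s, ((g' : GV V) ^ i) • l • u ≠ 0 := by
    by_contra hcon
    push Not at hcon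
    obtain ⟨f, hf⟩ : ∃ f : Module.Dual K V, f u ≠ 0 := by
      by_contra h
      push Not at h
      exact hu ((Module.forall_dual_apply_eq_zero_iff K u).1 h)
    have hli : LinearIndependent K (fun i : Fin s => (((τ ^ (i : ℕ) : K ≃+* K) : K →* K) : K → K)) := by
      refine (linearIndependent_monoidHom K K).comp (fun i : Fin s => ((τ ^ (i : ℕ) : K ≃+* K) : K →* K)) ?_
      intro i j hij
      have h1 : (τ ^ (i : ℕ) : K ≃+* K) = τ ^ (j : ℕ) := by
        ext x
        exact congrArg (fun f : K →* K => f x) hij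
      exact Fin.ext (pow_injOn_Iio_orderOf i.2 j.2 h1)
    have h1 := Fintype.linearIndependent_iff.1 hli (fun i => f (((g' : GV V) ^ (i : ℕ)) • u)) (by
      funext l
      have h2 := congrArg f (hcon l)
      rw [map_sum, map_zero, ← Fin.sum_univ_eq_sum_range (fun i => f (((g' : GV V) ^ i) • l • u))] at h2
      rw [Finset.sum_apply, Pi.zero_apply, ← h2]
      refine Finset.sum_congr rfl fun i _ => ?_
      show f (((g' : GV V) ^ (i : ℕ)) • u) * (τ ^ (i : ℕ)) l = f (((g' : GV V) ^ (i : ℕ)) • l • u)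
      rw [hsl, LinearMap.map_smul f, smul_eq_mul, mul_comm]) ⟨0, hs0⟩
    apply hf
    have h3 : f (((g' : GV V) ^ 0) • u) = 0 := h1
    rwa [pow_zero, one_smul] at h3
  obtain ⟨l, hl⟩ := hex
  set v : V := ∑ i ∈ Finset.range s, ((g' : GV V) ^ i) • l • u with hv
  have hfix : (g' : GV V) • v = v := by
    have h1 : (g' : GV V) • v = ∑ i ∈ Finset.range s, ((g' : GV V) ^ (i + 1)) • l • u := by
      rw [hv, Finset.smul_sum]
      refine Finset.sum_congr rfl fun i _ => ?_
      rw [pow_succ', mul_smul]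
    have h2 := Finset.sum_range_succ' (fun i => ((g' : GV V) ^ i) • l • u) s
    have h3 := Finset.sum_range_succ (fun i => ((g' : GV V) ^ i) • l • u) s
    rw [h1]
    have h4 : ((g' : GV V) ^ s) • l • u = ((g' : GV V) ^ 0) • l • u := by rw [hone, pow_zero, one_smul]
    rw [h3, h4] at h2
    exact (add_right_cancel h2).symm
  have hfixz : ∀ k : ℤ, ((g' : GV V) ^ k) • v = v := by
    intro k
    have h1 : (g' : GV V) ∈ MulAction.stabilizer (GV V) v := hfix
    exact (MulAction.stabilizer (GV V) v).zpow_mem h1 k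
  -- the line
  let U : AddSubgroup V :=
    { carrier := {w | ∃ c : K, w = c • v}
      add_mem' := by
        rintro _ _ ⟨c, rfl⟩ ⟨d, rfl⟩
        exact ⟨c + d, (add_smul _ _ _).symm⟩
      zero_mem' := ⟨0, (zero_smul _ _).symm⟩
      neg_mem' := by
        rintro _ ⟨c, rfl⟩
        exact ⟨-c, (neg_smul _ _).symm⟩ }
  have hU : ∀ a ∈ A, ∀ w ∈ U, a • w ∈ U := by
    rintro a ha _ ⟨c, rfl⟩
    obtain ⟨k, hk⟩ := Subgroup.mem_zpowers_iff.1 (hγ ⟨φ ⟨a, ha⟩, ⟨a, ha⟩, rfl⟩)
    have hk' : τ ^ k = φ ⟨a, ha⟩ := congrArg Subtype.val hk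
    obtain ⟨d, hd⟩ := hφ1 (⟨a, ha⟩ * (g' ^ k)⁻¹) (by
      rw [map_mul, map_inv, map_zpow, hφg', hk', mul_inv_cancel])
    have hd' : a * ((g' : GV V) ^ k)⁻¹ = scal K V d := hd
    have h1 : a = scal K V d * (g' : GV V) ^ k := by rw [← hd', inv_mul_cancel_right]
    refine ⟨φ ⟨a, ha⟩ c * d, ?_⟩
    have h2 := hφ ⟨a, ha⟩ c v
    rw [show ((⟨a, ha⟩ : A) : GV V) = a from rfl] at h2
    have h3 : a • v = (d : K) • v := by
      rw [h1, mul_smul, hfixz, scal_smul]
    rw [h2, h3, smul_smul]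
  rcases hirr U hU with h | h
  · exfalso
    have h1 : v ∈ U := ⟨1, (one_smul _ _).symm⟩
    rw [h] at h1
    exact hl h1
  · refine ⟨v, fun w => ?_⟩
    have h1 : w ∈ U := by rw [h]; exact AddSubgroup.mem_top w
    exact h1

end Cfsg.Agent.H529.TcHilbertN
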